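import Cfsg.Agent.Helper28.CoxG
import Cfsg.Agent.Helper28.Grp
import Cfsg.Agent.Helper28.SZQ2.Cert
import Cfsg.Agent.Helper28.SZQ3.Cert

/-! The group presented on `a, …, e` (a sub-diagram of the presentation of Suz) has order at most `280 * 2160`:
a tower of subgroups (helper28; generated). -/

set_option autoImplicit false

namespace Cfsg.Agent.Helper28.J2

/-- the group presented on `a, …, e` -/
abbrev QJ : Type := Cfsg.Spor.CoxPresented Cfsg.Agent.Helper28.SZ.Q2.Gen Cfsg.Agent.Helper28.SZ.Q2.edges Cfsg.Agent.Helper28.SZ.Q2.extra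

namespace AbsJ

/-- the inclusion of the generators -/
def incQ3 : Cfsg.Agent.Helper28.SZ.Q3.Gen → Cfsg.Agent.Helper28.SZ.Q2.Gen
  | .a => .a
  | .b => .b
  | .c => .c
  | .d => .d

theorem node (x : Cfsg.Agent.Helper28.SZ.Q2.Gen) : x ∈ Cfsg.Spor.coxNodes Cfsg.Agent.Helper28.SZ.Q2.edges := Cfsg.Agent.Helper28.SZQ2.cert.hnode x

theorem relE1_0 : FreeGroup.lift (fun y => (PresentedGroup.of (incQ3 y) : Cfsg.Agent.Helper28.J2.QJ)) (Cfsg.Agent.Helper28.SZ.Q3.a * ((Cfsg.Agent.Helper28.SZ.Q3.c * Cfsg.Agent.Helper28.SZ.Q3.d) ^ 4)⁻¹) = 1 := by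
  rw [Cfsg.Agent.Helper28.lift_of_comp]
  have e : FreeGroup.map incQ3 (Cfsg.Agent.Helper28.SZ.Q3.a * ((Cfsg.Agent.Helper28.SZ.Q3.c * Cfsg.Agent.Helper28.SZ.Q3.d) ^ 4)⁻¹) = Cfsg.Agent.Helper28.SZ.Q2.a * ((Cfsg.Agent.Helper28.SZ.Q2.c * Cfsg.Agent.Helper28.SZ.Q2.d) ^ 4)⁻¹ := by
    simp only [map_pow, map_mul, map_inv, FreeGroup.map.of, incQ3]
  rw [e]
  exact PresentedGroup.one_of_mem (Or.inr (by simp [Cfsg.Agent.Helper28.SZ.Q2.extra]))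

theorem rel1 : ∀ r ∈ (Cfsg.Spor.coxRelators Cfsg.Agent.Helper28.SZ.Q3.edges ∪ {r | r ∈ Cfsg.Agent.Helper28.SZ.Q3.extra}), FreeGroup.lift (fun y => (PresentedGroup.of (incQ3 y) : Cfsg.Agent.Helper28.J2.QJ)) r = 1 := by
  intro r hr
  rcases hr with ⟨x, _, y, _, rfl⟩ | hr
  · rw [map_pow, map_mul, FreeGroup.lift_apply_of, FreeGroup.lift_apply_of]
    have e : Cfsg.Spor.coxLabel Cfsg.Agent.Helper28.SZ.Q3.edges x y = Cfsg.Spor.coxLabel Cfsg.Agent.Helper28.SZ.Q2.edges (incQ3 x) (incQ3 y) := by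
      cases x <;> cases y <;> decide
    rw [e]
    exact Cfsg.Agent.Helper28.cox_pair Cfsg.Agent.Helper28.SZ.Q2.edges Cfsg.Agent.Helper28.SZ.Q2.extra _ _ (node _) (node _)
  · have hr' : r ∈ Cfsg.Agent.Helper28.SZ.Q3.extra := hr
    simp only [Cfsg.Agent.Helper28.SZ.Q3.extra, List.mem_cons, List.not_mem_nil, or_false] at hr'
    rcases hr' with rfl
    · exact relE1_0

/-- the homomorphism from the auxiliary group -/
noncomputable def f1 : Cfsg.Spor.CoxPresented Cfsg.Agent.Helper28.SZ.Q3.Gen Cfsg.Agent.Helper28.SZ.Q3.edges Cfsg.Agent.Helper28.SZ.Q3.extra →* Cfsg.Agent.Helper28.J2.QJ :=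
  PresentedGroup.toGroup rel1

theorem range1 : f1.range = (Subgroup.closure ({Cfsg.Agent.Helper28.SZ.Q2.a, Cfsg.Agent.Helper28.SZ.Q2.b, Cfsg.Agent.Helper28.SZ.Q2.c, Cfsg.Agent.Helper28.SZ.Q2.d} : Set (FreeGroup Cfsg.Agent.Helper28.SZ.Q2.Gen))).map (PresentedGroup.mk (Cfsg.Spor.coxRelators Cfsg.Agent.Helper28.SZ.Q2.edges ∪ {r | r ∈ Cfsg.Agent.Helper28.SZ.Q2.extra})) := by
  rw [f1, Cfsg.Agent.Helper28.toGroup_range, MonoidHom.map_closure]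
  congr 1
  ext z
  constructor
  · rintro ⟨y, rfl⟩
    cases y
    · exact ⟨Cfsg.Agent.Helper28.SZ.Q2.a, by simp, rfl⟩
    · exact ⟨Cfsg.Agent.Helper28.SZ.Q2.b, by simp, rfl⟩
    · exact ⟨Cfsg.Agent.Helper28.SZ.Q2.c, by simp, rfl⟩
    · exact ⟨Cfsg.Agent.Helper28.SZ.Q2.d, by simp, rfl⟩
  · rintro ⟨s, hs, rfl⟩
    simp only [Set.mem_insert_iff, Set.mem_singleton_iff] at hs
    rcases hs with rfl | rfl | rfl | rfl
    · exact ⟨Cfsg.Agent.Helper28.SZ.Q3.Gen.a, rfl⟩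
    · exact ⟨Cfsg.Agent.Helper28.SZ.Q3.Gen.b, rfl⟩
    · exact ⟨Cfsg.Agent.Helper28.SZ.Q3.Gen.c, rfl⟩
    · exact ⟨Cfsg.Agent.Helper28.SZ.Q3.Gen.d, rfl⟩

theorem bot1 : ((Subgroup.closure (∅ : Set (FreeGroup Cfsg.Agent.Helper28.SZ.Q3.Gen))).map (PresentedGroup.mk (Cfsg.Spor.coxRelators Cfsg.Agent.Helper28.SZ.Q3.edges ∪ {r | r ∈ Cfsg.Agent.Helper28.SZ.Q3.extra}))).map f1 = ⊥ := by
  rw [Subgroup.closure_empty, Subgroup.map_bot, Subgroup.map_bot]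

theorem card1 : Finite f1.range ∧ Nat.card f1.range ≤ 2160 := by
  have h := Cfsg.Agent.Helper28.card_range_le f1 ((Subgroup.closure (∅ : Set (FreeGroup Cfsg.Agent.Helper28.SZ.Q3.Gen))).map (PresentedGroup.mk (Cfsg.Spor.coxRelators Cfsg.Agent.Helper28.SZ.Q3.edges ∪ {r | r ∈ Cfsg.Agent.Helper28.SZ.Q3.extra}))) 2160 Cfsg.Agent.Helper28.SZQ3.cert.index_eq (by norm_num) (by rw [bot1]; infer_instance)
  rw [bot1, Subgroup.card_bot, Nat.mul_one] at h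
  exact h

/-- The presented group is finite, of order at most the expected one. -/
theorem card_le : Finite Cfsg.Agent.Helper28.J2.QJ ∧ Nat.card Cfsg.Agent.Helper28.J2.QJ ≤ 280 * (2160) := by
  have h1 := card1
  rw [range1] at h1
  have hmul := ((Subgroup.closure ({Cfsg.Agent.Helper28.SZ.Q2.a, Cfsg.Agent.Helper28.SZ.Q2.b, Cfsg.Agent.Helper28.SZ.Q2.c, Cfsg.Agent.Helper28.SZ.Q2.d} : Set (FreeGroup Cfsg.Agent.Helper28.SZ.Q2.Gen))).map (PresentedGroup.mk (Cfsg.Spor.coxRelators Cfsg.Agent.Helper28.SZ.Q2.edges ∪ {r | r ∈ Cfsg.Agent.Helper28.SZ.Q2.extra}))).card_mul_index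
  rw [Cfsg.Agent.Helper28.SZQ2.cert.index_eq] at hmul
  have hfin := h1.1
  have hpos : 0 < Nat.card ((Subgroup.closure ({Cfsg.Agent.Helper28.SZ.Q2.a, Cfsg.Agent.Helper28.SZ.Q2.b, Cfsg.Agent.Helper28.SZ.Q2.c, Cfsg.Agent.Helper28.SZ.Q2.d} : Set (FreeGroup Cfsg.Agent.Helper28.SZ.Q2.Gen))).map (PresentedGroup.mk (Cfsg.Spor.coxRelators Cfsg.Agent.Helper28.SZ.Q2.edges ∪ {r | r ∈ Cfsg.Agent.Helper28.SZ.Q2.extra}))) := Nat.card_pos
  have hne : Nat.card Cfsg.Agent.Helper28.J2.QJ ≠ 0 := by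
    rw [← hmul]
    exact Nat.mul_ne_zero (Nat.pos_iff_ne_zero.mp hpos) (by norm_num)
  refine ⟨Nat.finite_of_card_ne_zero hne, ?_⟩
  rw [← hmul, Nat.mul_comm]
  exact Nat.mul_le_mul_left _ h1.2

end AbsJ

end Cfsg.Agent.Helper28.J2
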