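import Cfsg.Agent.Helper28.Grp2
import Cfsg.Agent.Helper28.Grp3
import Cfsg.Agent.Helper28.Grp7
import Cfsg.Agent.Helper28.TCL4
import Cfsg.Agent.Helper28.G2.Abs
import Cfsg.Agent.Helper28.SZQ1O.OrbAll
import Cfsg.Agent.Helper28.J2U.Cert
import Cfsg.Agent.Helper28.J2UO.OrbAll
import Cfsg.Agent.Helper28.J2V.Cert
import Cfsg.Agent.Helper28.J2VO.OrbAll
import Cfsg.Agent.Helper28.J2.Abs

/-!
# Maximal subgroups from orbit certificates (helper28)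

In the group `QA` presented on `a, …, f` (it is `G₂(4)`) the subgroup `HJ` generated by `a, …, e` is
maximal (orbits `1 + 100 + 315` on its cosets).  In the group `QJ` presented on `a, …, e` (it is the
Hall–Janko group) the subgroups `UJ` of index 100 (orbits `1 + 36 + 63`) and `VJ` of index 315 (orbits
`1 + 10 + 32 + 32 + 80 + 160`) are maximal.
-/

set_option autoImplicit false

namespace Cfsg.Agent.Helper28.J2

open Cfsg.Agent.Helper28 Cfsg.Spor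

/-- the subgroup of `QA` generated by `a, …, e` -/
abbrev HJ : Subgroup G2.QA :=
  (Subgroup.closure ({SZ.Q1.a, SZ.Q1.b, SZ.Q1.c, SZ.Q1.d, SZ.Q1.e} : Set (FreeGroup SZ.Q1.Gen))).map
    (PresentedGroup.mk (coxRelators SZ.Q1.edges ∪ {r | r ∈ SZ.Q1.extra}))

/-- the subgroup of index 100 of `QJ` -/
abbrev UJ : Subgroup QJ :=
  (Subgroup.closure ({SZ.Q2.b, SZ.Q2.c, SZ.Q2.a * SZ.Q2.b * SZ.Q2.c * SZ.Q2.d,
    SZ.Q2.e * SZ.Q2.d * SZ.Q2.c * SZ.Q2.b * SZ.Q2.a * SZ.Q2.b * SZ.Q2.c * SZ.Q2.d * SZ.Q2.e} :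
      Set (FreeGroup SZ.Q2.Gen))).map
    (PresentedGroup.mk (coxRelators SZ.Q2.edges ∪ {r | r ∈ SZ.Q2.extra}))

/-- the subgroup of index 315 of `QJ` -/
abbrev VJ : Subgroup QJ :=
  (Subgroup.closure ({SZ.Q2.a, SZ.Q2.c, SZ.Q2.d, SZ.Q2.e,
    SZ.Q2.b * SZ.Q2.a * SZ.Q2.c * SZ.Q2.b * SZ.Q2.a * SZ.Q2.b * SZ.Q2.d * SZ.Q2.c * SZ.Q2.d * SZ.Q2.b *
      SZ.Q2.c * SZ.Q2.a * SZ.Q2.b * SZ.Q2.a * SZ.Q2.b} : Set (FreeGroup SZ.Q2.Gen))).map
    (PresentedGroup.mk (coxRelators SZ.Q2.edges ∪ {r | r ∈ SZ.Q2.extra}))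

theorem HJ_index : HJ.index = 416 := SZQ1.cert.index_eq

theorem UJ_index : UJ.index = 100 := J2U.cert.index_eq

theorem VJ_index : VJ.index = 315 := J2V.cert.index_eq

/-- the value of a word in `QA` -/
noncomputable abbrev wA (l : List ℕ) : G2.QA :=
  (l.map (coxVal SZ.Q1.edges SZ.Q1.extra SZQ1.gen SZQ1.D.jc)).prod

/-- a word leading to the orbit of 100 points -/
def x1w : List ℕ := [5, 1, 2, 3, 2, 1, 5]

/-- a word leading to the orbit of 315 points -/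
def x2w : List ℕ := [5]

theorem orb_x1 : (MulAction.orbit HJ (QuotientGroup.mk (wA x1w) : G2.QA ⧸ HJ)).ncard = 100 := by
  obtain ⟨e, he, he1⟩ := SZQ1.cert.exists_equiv
  have o1 := (SZQ1.cert.orbit_cert e he 100 SZQ1O.ov1 SZQ1O.op1 SZQ1O.otp1 SZQ1O.otw1 (by decide)
    SZQ1O.orb1_all SZQ1O.ov1_lt).1
  have m1 := SZQ1.cert.equiv_mk_word e he he1 x1w (by decide +kernel) (SZQ1O.ov1 0) SZQ1O.ov1_lt
    (by decide +kernel)
  rw [show (QuotientGroup.mk (wA x1w) : G2.QA ⧸ HJ) = _ from m1]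
  exact o1

theorem orb_x2 : (MulAction.orbit HJ (QuotientGroup.mk (wA x2w) : G2.QA ⧸ HJ)).ncard = 315 := by
  obtain ⟨e, he, he1⟩ := SZQ1.cert.exists_equiv
  have o2 := (SZQ1.cert.orbit_cert e he 315 SZQ1O.ov2 SZQ1O.op2 SZQ1O.otp2 SZQ1O.otw2 (by decide)
    SZQ1O.orb2_all SZQ1O.ov2_lt).1
  have m2 := SZQ1.cert.equiv_mk_word e he he1 x2w (by decide +kernel) (SZQ1O.ov2 0) SZQ1O.ov2_lt
    (by decide +kernel)
  rw [show (QuotientGroup.mk (wA x2w) : G2.QA ⧸ HJ) = _ from m2]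
  exact o2

theorem HJ_maximal (L : Subgroup G2.QA) (hL : HJ ≤ L) : L = HJ ∨ L = ⊤ := by
  refine maximal_of_orbits' HJ
    ![(QuotientGroup.mk (wA x1w) : G2.QA ⧸ HJ), (QuotientGroup.mk (wA x2w) : G2.QA ⧸ HJ)]
    ![100, 315] ?_ ?_ ?_ ?_ ?_ L hL
  · intro i
    fin_cases i
    · exact orb_x1
    · exact orb_x2
  · decide
  · decide
  · rw [HJ_index, Fin.sum_univ_two]
    rfl
  · rw [HJ_index]
    decide

theorem HJ_coatom : IsCoatom HJ := by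
  refine isCoatom_of_maximal HJ ?_ HJ_maximal
  intro h
  have h1 := HJ_index
  rw [h, Subgroup.index_top] at h1
  exact absurd h1 (by norm_num)

theorem double_cosets (y : G2.QA) :
    y ∈ HJ ∨ ∃ i : Fin 2, ∃ h ∈ HJ, ∃ h' ∈ HJ, y = h * ![wA x1w, wA x2w] i * h' := by
  refine double_coset_cover HJ ![wA x1w, wA x2w] ![100, 315] ?_ (by decide) (by decide) ?_ y
  · intro i
    fin_cases i
    · exact orb_x1
    · exact orb_x2
  · rw [HJ_index, Fin.sum_univ_two]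
    rfl

theorem UJ_maximal (L : Subgroup QJ) (hL : UJ ≤ L) : L = UJ ∨ L = ⊤ := by
  obtain ⟨e, he, _⟩ := J2U.cert.exists_equiv
  have o1 := (J2U.cert.orbit_cert e he 36 J2UO.ov1 J2UO.op1 J2UO.otp1 J2UO.otw1 (by decide)
    J2UO.orb1_all J2UO.ov1_lt).1
  have o2 := (J2U.cert.orbit_cert e he 63 J2UO.ov2 J2UO.op2 J2UO.otp2 J2UO.otw2 (by decide)
    J2UO.orb2_all J2UO.ov2_lt).1
  refine maximal_of_orbits' UJ
    ![e.symm ⟨J2UO.ov1 0, J2UO.ov1_lt⟩, e.symm ⟨J2UO.ov2 0, J2UO.ov2_lt⟩]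
    ![36, 63] ?_ ?_ ?_ ?_ ?_ L hL
  · intro i
    fin_cases i
    · exact o1
    · exact o2
  · decide
  · decide
  · rw [UJ_index, Fin.sum_univ_two]
    rfl
  · rw [UJ_index]
    decide

theorem UJ_coatom : IsCoatom UJ := by
  refine isCoatom_of_maximal UJ ?_ UJ_maximal
  intro h
  have h1 := UJ_index
  rw [h, Subgroup.index_top] at h1
  exact absurd h1 (by norm_num)

theorem VJ_maximal (L : Subgroup QJ) (hL : VJ ≤ L) : L = VJ ∨ L = ⊤ := by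
  obtain ⟨e, he, _⟩ := J2V.cert.exists_equiv
  have o1 := J2V.cert.orbit_cert e he 10 J2VO.ov1 J2VO.op1 J2VO.otp1 J2VO.otw1 (by decide)
    J2VO.orb1_all J2VO.ov1_lt
  have o2 := J2V.cert.orbit_cert e he 32 J2VO.ov2 J2VO.op2 J2VO.otp2 J2VO.otw2 (by decide)
    J2VO.orb2_all J2VO.ov2_lt
  have o3 := J2V.cert.orbit_cert e he 32 J2VO.ov3 J2VO.op3 J2VO.otp3 J2VO.otw3 (by decide)
    J2VO.orb3_all J2VO.ov3_lt
  have o4 := J2V.cert.orbit_cert e he 80 J2VO.ov4 J2VO.op4 J2VO.otp4 J2VO.otw4 (by decide)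
    J2VO.orb4_all J2VO.ov4_lt
  have o5 := J2V.cert.orbit_cert e he 160 J2VO.ov5 J2VO.op5 J2VO.otp5 J2VO.otw5 (by decide)
    J2VO.orb5_all J2VO.ov5_lt
  have hm : ∀ i : Fin 5, (MulAction.orbit VJ ((![e.symm ⟨J2VO.ov1 0, J2VO.ov1_lt⟩,
      e.symm ⟨J2VO.ov2 0, J2VO.ov2_lt⟩, e.symm ⟨J2VO.ov3 0, J2VO.ov3_lt⟩,
      e.symm ⟨J2VO.ov4 0, J2VO.ov4_lt⟩, e.symm ⟨J2VO.ov5 0, J2VO.ov5_lt⟩] : Fin 5 → QJ ⧸ VJ) i)).ncard =
      (![10, 32, 32, 80, 160] : Fin 5 → ℕ) i := by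
    intro i
    fin_cases i
    · exact o1.1
    · exact o2.1
    · exact o3.1
    · exact o4.1
    · exact o5.1
  -- the two orbits of 32 points are different
  have h23 : Disjoint (MulAction.orbit VJ (e.symm ⟨J2VO.ov2 0, J2VO.ov2_lt⟩))
      (MulAction.orbit VJ (e.symm ⟨J2VO.ov3 0, J2VO.ov3_lt⟩)) := by
    rcases MulAction.orbit.eq_or_disjoint (G := VJ) (e.symm ⟨J2VO.ov2 0, J2VO.ov2_lt⟩)
      (e.symm ⟨J2VO.ov3 0, J2VO.ov3_lt⟩) with h | h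
    · exfalso
      have h1 : e.symm ⟨J2VO.ov3 0, J2VO.ov3_lt⟩ ∈
          MulAction.orbit VJ (e.symm ⟨J2VO.ov2 0, J2VO.ov2_lt⟩) := by
        rw [h]; exact MulAction.mem_orbit_self _
      have h2 := (o2.2 _).mp h1
      rw [Equiv.apply_symm_apply] at h2
      have h3 : ¬ (J2VO.op2 (J2VO.ov3 0) < 32 ∧ J2VO.ov2 (J2VO.op2 (J2VO.ov3 0)) = J2VO.ov3 0) := by
        decide +kernel
      exact h3 h2
    · exact h
  refine maximal_of_orbits VJ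
    ![e.symm ⟨J2VO.ov1 0, J2VO.ov1_lt⟩, e.symm ⟨J2VO.ov2 0, J2VO.ov2_lt⟩,
      e.symm ⟨J2VO.ov3 0, J2VO.ov3_lt⟩, e.symm ⟨J2VO.ov4 0, J2VO.ov4_lt⟩,
      e.symm ⟨J2VO.ov5 0, J2VO.ov5_lt⟩]
    ![10, 32, 32, 80, 160] hm ?_ ?_ ?_ ?_ L hL
  · intro i j hij
    by_cases hne : (![10, 32, 32, 80, 160] : Fin 5 → ℕ) i = (![10, 32, 32, 80, 160] : Fin 5 → ℕ) j
    · have hcases : (i = 1 ∧ j = 2) ∨ (i = 2 ∧ j = 1) := by
        revert hij hne
        revert i j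
        decide
      rcases hcases with ⟨rfl, rfl⟩ | ⟨rfl, rfl⟩
      · exact h23
      · exact h23.symm
    · apply orbit_disjoint_of_ncard_ne
      rw [hm i, hm j]
      exact hne
  · intro i
    apply mk_one_notMem_orbit
    rw [hm i]
    revert i
    decide
  · rw [VJ_index]
    decide
  · rw [VJ_index]
    decide

theorem VJ_coatom : IsCoatom VJ := by
  refine isCoatom_of_maximal VJ ?_ VJ_maximal
  intro h
  have h1 := VJ_index
  rw [h, Subgroup.index_top] at h1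
  exact absurd h1 (by norm_num)

end Cfsg.Agent.Helper28.J2
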