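import Cfsg.Agent.Helper28.J2.Max
import Cfsg.Agent.Helper28.J2.Perm
import Cfsg.Agent.Helper28.G2.Iso
import Cfsg.Agent.Helper57.IcoJ2b
import Cfsg.Agent.Helper57.ChevMap

/-!
# `G₂(4)` on the cosets of the Hall–Janko group is extremely primitive (helper28)

The subgroup `HJ` generated by `a, …, e` in the presented group `QA ≃ G₂(4)` is isomorphic to the group
`QJ` presented on `a, …, e`, hence to the Hall–Janko group.  Its two-point stabilisers `HJ ⊓ x HJ x⁻¹`
are the images of the maximal subgroups `UJ` (index 100) and `VJ` (index 315) of `QJ`.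
-/

set_option autoImplicit false

namespace Cfsg.Agent.Helper28.J2

open Cfsg.Agent.Helper28 Cfsg.Spor

theorem card_QA : Nat.card G2.QA = 251596800 := by
  rw [Nat.card_congr (Equiv.ofBijective _ G2.phiG_bijective), G2.card_chev]

theorem finite_QA : Finite G2.QA := G2.Abs.card_le.1

theorem card_HJ : Nat.card HJ = 604800 := by
  have hmul := HJ.card_mul_index
  rw [HJ_index, card_QA] at hmul
  exact Nat.eq_of_mul_eq_mul_right (by norm_num : 0 < 416) (hmul.trans (by norm_num))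

theorem f1_range : G2.Abs.f1.range = HJ := G2.Abs.range1

/-- the map of the presented group onto the subgroup -/
noncomputable def jf : QJ →* HJ :=
  G2.Abs.f1.codRestrict HJ (fun x => by rw [← f1_range]; exact ⟨x, rfl⟩)

theorem jf_surjective : Function.Surjective jf := by
  rintro ⟨y, hy⟩
  rw [← f1_range] at hy
  obtain ⟨x, rfl⟩ := hy
  exact ⟨x, rfl⟩

theorem jf_bijective : Function.Bijective jf := by
  have := finite_QJ
  apply jf_surjective.bijective_of_nat_card_le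
  rw [card_HJ]
  exact card_QJ_le

/-- the presented group is the subgroup generated by `a, …, e` -/
noncomputable def jH : QJ ≃* HJ := MulEquiv.ofBijective jf jf_bijective

theorem jH_coe (x : QJ) : ((jH x : HJ) : G2.QA) = G2.Abs.f1 x := rfl

theorem isoJ2_HJ : Cfsg.Spor.IsoJ2 HJ := by
  obtain ⟨e⟩ := Cfsg.Agent.Helper57.ico_j2_iso
  exact ⟨jH.symm.trans (isoK0.trans e.symm)⟩

/-! ### words -/

theorem wA_append (l1 l2 : List ℕ) : wA (l1 ++ l2) = wA l1 * wA l2 := by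
  show ((l1 ++ l2).map _).prod = (l1.map _).prod * (l2.map _).prod
  rw [List.map_append, List.prod_append]

theorem wA_reverse (l : List ℕ) (hl : ∀ a ∈ l, a < SZQ1.D.jc) : wA l.reverse = (wA l)⁻¹ :=
  prod_reverse_inv _ l (fun a ha => SZQ1.cert.valInv a (le_of_lt (hl a ha)))

theorem f1_word (gen : ℕ → SZ.Q2.Gen) (jc : ℕ) (hjc : jc = 5)
    (hgen : ∀ k, k < 5 → G2.Abs.incQ2 (gen k) = SZQ1.gen k) (l : List ℕ) (hl : ∀ a ∈ l, a < 5) :
    G2.Abs.f1 ((l.map (coxVal SZ.Q2.edges SZ.Q2.extra gen jc)).prod) = wA l := by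
  subst hjc
  induction l with
  | nil => exact map_one _
  | cons k l ih =>
    have hk : k < 5 := hl k List.mem_cons_self
    rw [List.map_cons, List.prod_cons, map_mul, ih (fun a ha => hl a (List.mem_cons_of_mem _ ha))]
    show _ = coxVal SZ.Q1.edges SZ.Q1.extra SZQ1.gen SZQ1.D.jc k * wA l
    congr 1
    unfold coxVal
    rw [if_pos hk, if_pos (show k < SZQ1.D.jc from lt_of_lt_of_le hk (by decide))]
    rw [← hgen k hk]
    exact PresentedGroup.toGroup.of _

theorem conj_mem (x : List ℕ) (hx : ∀ a ∈ x, a < SZQ1.D.jc) (l : List ℕ)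
    (h1 : letChk SZQ1.D.jc (x.reverse ++ (l ++ x)) = true)
    (h2 : walkA SZQ1.T (x.reverse ++ (l ++ x)) 0 = 0) :
    wA l ∈ HJ.map (MulAut.conj (wA x)).toMonoidHom := by
  have h : wA (x.reverse ++ (l ++ x)) ∈ HJ := SZQ1.cert.mem_of_walk _ h1 h2
  rw [wA_append, wA_append, wA_reverse x hx] at h
  refine ⟨(wA x)⁻¹ * (wA l * wA x), h, ?_⟩
  show wA x * ((wA x)⁻¹ * (wA l * wA x)) * (wA x)⁻¹ = wA l
  group

/-! ### the stabiliser of a point of the orbit of 100 points -/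

theorem U_chk : ∀ l ∈ J2U.subL, letChk SZQ1.D.jc (x1w.reverse ++ (l ++ x1w)) = true ∧
    walkA SZQ1.T (x1w.reverse ++ (l ++ x1w)) 0 = 0 := by decide +kernel

theorem U_map_le : UJ.map G2.Abs.f1 ≤ HJ ⊓ HJ.map (MulAut.conj (wA x1w)).toMonoidHom := by
  show ((Subgroup.closure _).map _).map _ ≤ _
  rw [MonoidHom.map_closure, MonoidHom.map_closure, Subgroup.closure_le]
  rintro _ ⟨_, ⟨s, hs, rfl⟩, rfl⟩
  obtain ⟨l, hl, hw⟩ := J2U.cert.hsub2 s hs
  have hlet := J2U.cert.hletS l hl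
  have e2 : G2.Abs.f1 (PresentedGroup.mk _ s) = wA l := by
    rw [← J2U.cert.wordVal s l hw hlet]
    exact f1_word J2U.gen J2U.D.jc rfl (by intro k hk; interval_cases k <;> rfl) l hlet
  rw [SetLike.mem_coe, e2]
  refine ⟨?_, conj_mem x1w (by decide) l (U_chk l hl).1 (U_chk l hl).2⟩
  rw [← e2, ← f1_range]
  exact ⟨_, rfl⟩

theorem K1_eq : (HJ ⊓ HJ.map (MulAut.conj (wA x1w)).toMonoidHom).subgroupOf HJ =
    MulEquiv.mapSubgroup jH UJ := by
  symm
  apply eq_of_le_of_index_eq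
  · rintro ⟨z, hz⟩ ⟨u, hu, huz⟩
    rw [Subgroup.mem_subgroupOf]
    have e : G2.Abs.f1 u = z := congrArg Subtype.val huz
    show z ∈ _
    rw [← e]
    exact U_map_le ⟨u, hu, rfl⟩
  · rw [index_inf_conj, orb_x1]
    show (UJ.map (jH : QJ →* HJ)).index = 100
    rw [Subgroup.index_map_equiv, UJ_index]
  · rw [index_inf_conj, orb_x1]
    norm_num

theorem K1_coatom : IsCoatom ((HJ ⊓ HJ.map (MulAut.conj (wA x1w)).toMonoidHom).subgroupOf HJ) := by
  rw [K1_eq]
  exact (OrderIso.isCoatom_iff (MulEquiv.mapSubgroup jH) UJ).mpr UJ_coatom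

/-! ### the stabiliser of a point of the orbit of 315 points -/

theorem V_chk : ∀ l ∈ J2V.subL, letChk SZQ1.D.jc (x2w.reverse ++ (l ++ x2w)) = true ∧
    walkA SZQ1.T (x2w.reverse ++ (l ++ x2w)) 0 = 0 := by decide +kernel

theorem V_map_le : VJ.map G2.Abs.f1 ≤ HJ ⊓ HJ.map (MulAut.conj (wA x2w)).toMonoidHom := by
  show ((Subgroup.closure _).map _).map _ ≤ _
  rw [MonoidHom.map_closure, MonoidHom.map_closure, Subgroup.closure_le]
  rintro _ ⟨_, ⟨s, hs, rfl⟩, rfl⟩
  obtain ⟨l, hl, hw⟩ := J2V.cert.hsub2 s hs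
  have hlet := J2V.cert.hletS l hl
  have e2 : G2.Abs.f1 (PresentedGroup.mk _ s) = wA l := by
    rw [← J2V.cert.wordVal s l hw hlet]
    exact f1_word J2V.gen J2V.D.jc rfl (by intro k hk; interval_cases k <;> rfl) l hlet
  rw [SetLike.mem_coe, e2]
  refine ⟨?_, conj_mem x2w (by decide) l (V_chk l hl).1 (V_chk l hl).2⟩
  rw [← e2, ← f1_range]
  exact ⟨_, rfl⟩

theorem K2_eq : (HJ ⊓ HJ.map (MulAut.conj (wA x2w)).toMonoidHom).subgroupOf HJ =
    MulEquiv.mapSubgroup jH VJ := by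
  symm
  apply eq_of_le_of_index_eq
  · rintro ⟨z, hz⟩ ⟨u, hu, huz⟩
    rw [Subgroup.mem_subgroupOf]
    have e : G2.Abs.f1 u = z := congrArg Subtype.val huz
    show z ∈ _
    rw [← e]
    exact V_map_le ⟨u, hu, rfl⟩
  · rw [index_inf_conj, orb_x2]
    show (VJ.map (jH : QJ →* HJ)).index = 315
    rw [Subgroup.index_map_equiv, VJ_index]
  · rw [index_inf_conj, orb_x2]
    norm_num

theorem K2_coatom : IsCoatom ((HJ ⊓ HJ.map (MulAut.conj (wA x2w)).toMonoidHom).subgroupOf HJ) := by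
  rw [K2_eq]
  exact (OrderIso.isCoatom_iff (MulEquiv.mapSubgroup jH) VJ).mpr VJ_coatom

/-! ### the main statement -/

theorem main_QA : ∃ H : Subgroup G2.QA, IsCoatom H ∧ Cfsg.Spor.IsoJ2 H ∧
    ∀ x : G2.QA, x ∉ H → IsCoatom ((H ⊓ H.map (MulAut.conj x).toMonoidHom).subgroupOf H) := by
  refine ⟨HJ, HJ_coatom, isoJ2_HJ, ?_⟩
  intro x hx
  rcases double_cosets x with h | ⟨i, h, hh, h', hh', rfl⟩
  · exact absurd h hx
  · fin_cases i
    · exact coatom_inf_conj_of_dc HJ (wA x1w) h h' hh hh' K1_coatom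
    · exact coatom_inf_conj_of_dc HJ (wA x2w) h h' hh hh' K2_coatom

/-- The statement is invariant under isomorphisms. -/
theorem transfer {G : Type*} {G' : Type*} [Group G] [Group G'] (e : G ≃* G')
    (h : ∃ H : Subgroup G, IsCoatom H ∧ Cfsg.Spor.IsoJ2 H ∧
      ∀ x : G, x ∉ H → IsCoatom ((H ⊓ H.map (MulAut.conj x).toMonoidHom).subgroupOf H)) :
    ∃ H : Subgroup G', IsCoatom H ∧ Cfsg.Spor.IsoJ2 H ∧
      ∀ x : G', x ∉ H → IsCoatom ((H ⊓ H.map (MulAut.conj x).toMonoidHom).subgroupOf H) := by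
  obtain ⟨H, h1, ⟨i⟩, h3⟩ := h
  refine ⟨H.map e.toMonoidHom, (OrderIso.isCoatom_iff (MulEquiv.mapSubgroup e) H).mpr h1,
    ⟨(e.subgroupMap H).symm.trans i⟩, ?_⟩
  intro x' hx'
  apply coatom_inf_conj_map e H x'
  apply h3
  intro hmem
  exact hx' ⟨e.symm x', hmem, e.apply_symm_apply x'⟩

/-- `G₂(4)` on the cosets of the Hall–Janko group is extremely primitive. -/
theorem main {F : Type*} [Field F] [Fintype F] (hF : Fintype.card F = 4) :
    ∃ H : Subgroup (Cfsg.Lie.chevG2.group F), IsCoatom H ∧ Cfsg.Spor.IsoJ2 H ∧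
      ∀ x : Cfsg.Lie.chevG2.group F, x ∉ H →
        IsCoatom ((H ⊓ H.map (MulAut.conj x).toMonoidHom).subgroupOf H) := by
  have σ : F ≃+* GF4 := FiniteField.ringEquivOfCardEq (hF.trans GF4.card_eq.symm)
  exact transfer ((MulEquiv.ofBijective G2.phiG G2.phiG_bijective).trans
    (Cfsg.Agent.Helper57.chevGroupCongr Cfsg.Lie.chevG2 σ).symm) main_QA

end Cfsg.Agent.Helper28.J2
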